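import Mathlib
import Cfsg.Agent.Lib.TwoGroups.Present

/-!
# Centralizers of double transpositions in the alternating group of degree 6
-/

set_option autoImplicit false

namespace Cfsg.Agent.Lib.A6Rec

open Subgroup

/-- The double transposition `(0 1)(2 3)`. -/
def dt0 : Equiv.Perm (Fin 6) := Equiv.swap 0 1 * Equiv.swap 2 3
/-- An element of order four whose square is `dt0`. -/
def dr0 : Equiv.Perm (Fin 6) := Equiv.swap 0 2 * Equiv.swap 2 1 * Equiv.swap 1 3 * Equiv.swap 4 5
/-- An involution inverting `dr0`. -/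
def ds0 : Equiv.Perm (Fin 6) := Equiv.swap 0 2 * Equiv.swap 1 3

theorem dt0_even : dt0 ∈ alternatingGroup (Fin 6) := Equiv.Perm.mem_alternatingGroup.mpr (by decide)
theorem dr0_even : dr0 ∈ alternatingGroup (Fin 6) := Equiv.Perm.mem_alternatingGroup.mpr (by decide)
theorem ds0_even : ds0 ∈ alternatingGroup (Fin 6) := Equiv.Perm.mem_alternatingGroup.mpr (by decide)

theorem cycleType_dt0 : dt0.cycleType = {2, 2} := by decide +kernel

theorem card_dt0_cent : (Finset.univ.filter (fun x : Equiv.Perm (Fin 6) =>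
    Equiv.Perm.sign x = 1 ∧ x * dt0 = dt0 * x)).card = 8 := by decide +kernel

/-- The centralizer of `(0 1)(2 3)` in the alternating group is dihedral of order 8. -/
theorem cent_dt0 : Nonempty (centralizer ({(⟨dt0, dt0_even⟩ : alternatingGroup (Fin 6))} : Set (alternatingGroup (Fin 6)))
    ≃* DihedralGroup 4) := by
  classical
  let a₀ : alternatingGroup (Fin 6) := ⟨dt0, dt0_even⟩
  have hr : (⟨dr0, dr0_even⟩ : alternatingGroup (Fin 6)) ∈ centralizer ({a₀} : Set (alternatingGroup (Fin 6))) := by
    rw [Subgroup.mem_centralizer_singleton_iff]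
    apply Subtype.ext
    show dr0 * dt0 = dt0 * dr0
    decide
  have hs : (⟨ds0, ds0_even⟩ : alternatingGroup (Fin 6)) ∈ centralizer ({a₀} : Set (alternatingGroup (Fin 6))) := by
    rw [Subgroup.mem_centralizer_singleton_iff]
    apply Subtype.ext
    show ds0 * dt0 = dt0 * ds0
    decide
  let ρ : centralizer ({a₀} : Set (alternatingGroup (Fin 6))) := ⟨_, hr⟩
  let σ : centralizer ({a₀} : Set (alternatingGroup (Fin 6))) := ⟨_, hs⟩
  haveI : NeZero (4 : ℕ) := ⟨by norm_num⟩
  have h1 : orderOf ρ = 4 := by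
    rw [Subgroup.orderOf_mk, Subgroup.orderOf_mk]
    have h := orderOf_eq_prime_pow (x := dr0) (p := 2) (n := 1) (by decide) (by decide)
    simpa using h
  have h2 : σ * σ = 1 := by
    apply Subtype.ext
    apply Subtype.ext
    show ds0 * ds0 = 1
    decide
  have h3 : σ * ρ * σ⁻¹ = ρ⁻¹ := by
    apply Subtype.ext
    apply Subtype.ext
    show ds0 * dr0 * ds0⁻¹ = dr0⁻¹
    decide
  have h4 : σ ∉ zpowers ρ := by
    intro hm
    obtain ⟨k, hk⟩ := Subgroup.mem_zpowers_iff.mp hm
    have h5 : σ * ρ = ρ * σ := by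
      rw [← hk]
      exact ((Commute.refl ρ).zpow_left k).eq
    have h6 : ds0 * dr0 = dr0 * ds0 := congrArg (fun x => (x.1.1 : Equiv.Perm (Fin 6))) h5
    revert h6
    decide
  have hcard : Nat.card (centralizer ({a₀} : Set (alternatingGroup (Fin 6)))) = 2 * 4 := by
    have e : centralizer ({a₀} : Set (alternatingGroup (Fin 6))) ≃
        {x : Equiv.Perm (Fin 6) // Equiv.Perm.sign x = 1 ∧ x * dt0 = dt0 * x} :=
      { toFun := fun x => ⟨x.1.1, Equiv.Perm.mem_alternatingGroup.mp x.1.2,
          congrArg Subtype.val (Subgroup.mem_centralizer_singleton_iff.mp x.2)⟩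
        invFun := fun x => ⟨⟨x.1, Equiv.Perm.mem_alternatingGroup.mpr x.2.1⟩,
          Subgroup.mem_centralizer_singleton_iff.mpr (Subtype.ext x.2.2)⟩
        left_inv := fun x => rfl
        right_inv := fun x => rfl }
    rw [Nat.card_congr e, Nat.card_eq_fintype_card, Fintype.card_subtype]
    rw [show (Finset.univ.filter (fun x : Equiv.Perm (Fin 6) => Equiv.Perm.sign x = 1 ∧ x * dt0 = dt0 * x)).card = 8 from by
      convert card_dt0_cent]
  exact Cfsg.Agent.Lib.TwoGroups.nonempty_mulEquiv_dihedral_of ρ σ h1 h2 h3 h4 hcard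

/-- Centralizers transport along automorphisms. -/
def centEquiv {X : Type*} [Group X] (φ : X ≃* X) (a : X) :
    centralizer ({φ a} : Set X) ≃* centralizer ({a} : Set X) where
  toFun x := ⟨φ.symm x.1, by
    rw [Subgroup.mem_centralizer_singleton_iff]
    apply φ.injective
    have := Subgroup.mem_centralizer_singleton_iff.mp x.2
    simpa using this⟩
  invFun y := ⟨φ y.1, by
    rw [Subgroup.mem_centralizer_singleton_iff]
    rw [← map_mul, ← map_mul, Subgroup.mem_centralizer_singleton_iff.mp y.2]⟩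
  left_inv x := by
    apply Subtype.ext
    simp
  right_inv y := by
    apply Subtype.ext
    simp
  map_mul' x y := by
    apply Subtype.ext
    simp

/-- Every double transposition of the alternating group of degree 6 has dihedral centralizer of order 8. -/
theorem cent_double_transposition (a : alternatingGroup (Fin 6)) (ha : orderOf a = 2)
    (hs : (a : Equiv.Perm (Fin 6)).support.card = 4) :
    Nonempty (centralizer ({a} : Set (alternatingGroup (Fin 6))) ≃* DihedralGroup 4) := by
  classical
  have hord : orderOf (a : Equiv.Perm (Fin 6)) = 2 := by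
    rw [Subgroup.orderOf_coe]
    exact ha
  have hall : ∀ n ∈ (a : Equiv.Perm (Fin 6)).cycleType, n = 2 := by
    intro n hn
    have h3 := Equiv.Perm.dvd_of_mem_cycleType hn
    have h4 := Equiv.Perm.two_le_of_mem_cycleType hn
    rw [hord] at h3
    have := Nat.le_of_dvd (by norm_num) h3
    omega
  have h3 : (a : Equiv.Perm (Fin 6)).cycleType = Multiset.replicate (Multiset.card (a : Equiv.Perm (Fin 6)).cycleType) 2 :=
    Multiset.eq_replicate_card.mpr hall
  have h4 : (a : Equiv.Perm (Fin 6)).cycleType.sum = Multiset.card (a : Equiv.Perm (Fin 6)).cycleType * 2 := by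
    conv_lhs => rw [h3]
    simp
  rw [Equiv.Perm.sum_cycleType, hs] at h4
  have h5 : Multiset.card (a : Equiv.Perm (Fin 6)).cycleType = 2 := by omega
  rw [h5] at h3
  have hconj : IsConj dt0 (a : Equiv.Perm (Fin 6)) := by
    rw [Equiv.Perm.isConj_iff_cycleType_eq, cycleType_dt0, h3]
    rfl
  obtain ⟨g, hg⟩ := isConj_iff.mp hconj
  have hφ : (MulAut.conjNormal g : alternatingGroup (Fin 6) ≃* alternatingGroup (Fin 6)) ⟨dt0, dt0_even⟩ = a := by
    apply Subtype.ext
    rw [MulAut.conjNormal_apply]
    exact hg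
  obtain ⟨e⟩ := cent_dt0
  rw [← hφ]
  exact ⟨(centEquiv _ _).trans e⟩

end Cfsg.Agent.Lib.A6Rec
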